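import Cfsg.Agent.H328.OZ.SevenData
import Cfsg.Agent.H328.OZ.Nine
import Cfsg.Agent.H237.OSevenG
import Cfsg.Agent.FooteOrth.Spin
import Cfsg.Agent.UGT.U2.Rec.Congr

/-!
# One vanishing class: `PΩ₇(3)` (helper328, S4842)

The centralizers of elements of order 7 and 13 by a count of images of a cyclic vector; `row_o7_3`.
-/

set_option autoImplicit false
set_option linter.unusedSectionVars false

open Cfsg QuadraticMap Module Matrix
open Cfsg.Agent.LieClassical.OrthCore Cfsg.Agent.LieClassical.OrthTrans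
  Cfsg.Agent.LieClassical.OrthFinite Cfsg.Agent.LieClassical.OrthForms
open Cfsg.Agent.H237.OSeven (w u0 Qp Qm Qu Q_w Q_u0 refl_p refl_u zz zz_mem zz_conj)
open Cfsg.Agent.H237.OSevenC (good two_ne det_E card_E v0 z0 zE card_cent field_cases)
open Cfsg.Agent.FooteOrth (sg sg_refl det_refl mem_E_iff)
open Cfsg.Agent.H328.OZ.SevenData Cfsg.Agent.H328.OZ.Nine

namespace Cfsg.Agent.H328.OZ.OSevenThree

universe u

local instance : Fact (Nat.Prime 3) := ⟨Nat.prime_three⟩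

/-- the space -/
abbrev V := I → ZMod 3

/-- the form -/
abbrev QF : QuadraticForm (ZMod 3) V := oddForm 3 (ZMod 3)

theorem hF3 : Nat.card (ZMod 3) = 3 := Nat.card_zmod 3

theorem polar_mat (u v : V) : polar QF u v = u ⬝ᵥ (Gm *ᵥ v) := by
  rw [polar_oddForm]
  simp only [dotProduct, mulVec, Fintype.sum_sum_type, Fin.sum_univ_three, Finset.univ_unique, Finset.sum_singleton,
    PUnit.default_eq_unit, Gm, SevenData.mat, SevenData.vec, Matrix.of_apply, Sum.elim_inl, Sum.elim_inr, Matrix.cons_val_zero,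
    Matrix.cons_val_one, Matrix.cons_val]
  ring

theorem Q_mat (v : V) : QF v = 2 * (v ⬝ᵥ (Gm *ᵥ v)) := by
  rw [← polar_mat, polar_self', ← mul_assoc, show (2 * 2 : ZMod 3) = 1 from by decide, one_mul]

/-! ### linear equivalences from matrices -/

/-- a linear equivalence -/
noncomputable def toE {A B : M7} (h : A * B = 1) (h' : B * A = 1) : V ≃ₗ[ZMod 3] V :=
  LinearEquiv.ofLinearMap (toLin' A) (toLin' B) (by rw [← toLin'_mul, h, toLin'_one])
    (by rw [← toLin'_mul, h', toLin'_one])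

theorem toE_apply {A B : M7} (h : A * B = 1) (h' : B * A = 1) (x : V) : toE h h' x = A *ᵥ x := rfl

theorem mem_O_of {A : M7} {g : V ≃ₗ[ZMod 3] V} (hg : ∀ x, g x = A *ᵥ x) (h : Aᵀ * (Gm * A) = Gm) : g ∈ O QF := by
  rw [mem_O]
  intro x
  rw [hg, Q_mat, Q_mat, ← vecMul_transpose, ← dotProduct_mulVec, vecMul_transpose, mulVec_mulVec, mulVec_mulVec,
    Matrix.mul_assoc, h]

theorem pow_apply {A : M7} {g : V ≃ₗ[ZMod 3] V} (hg : ∀ x, g x = A *ᵥ x) (n : ℕ) (x : V) : (g ^ n) x = A ^ n *ᵥ x := by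
  induction n with
  | zero => rw [pow_zero, pow_zero, one_mulVec]; rfl
  | succ n ih => rw [pow_succ', pow_succ', ← mulVec_mulVec, ← ih, ← hg]; rfl

theorem refl_mat {v : V} (hv : QF v ≠ 0) {s : ZMod 3} (hs : QF v = s) (x : V) :
    refl QF v hv x = (1 - s⁻¹ • vecMulVec v (Gm *ᵥ v)) *ᵥ x := by
  rw [refl_apply, hs, sub_mulVec, one_mulVec, smul_mulVec, polar_comm, polar_mat, mul_smul]
  congr 2
  rw [vecMulVec_mulVec, dotProduct_comm, op_smul_eq_smul]

/-! ### the count -/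

/-- two isometries commuting with `z` which agree on a cyclic vector are equal -/
theorem eq_of_cyclic {A : M7} {z : V ≃ₗ[ZMod 3] V} (hzA : ∀ x, z x = A *ᵥ x) {v : V} {Em Ei : M7} (hE : Em * Ei = 1)
    (hcol : ∀ j, ∃ n : ℕ, (fun i => Em i j) = A ^ n *ᵥ v) {g h : V ≃ₗ[ZMod 3] V} (hg : g * z = z * g)
    (hh : h * z = z * h) (hv : g v = h v) : g = h := by
  have hpow : ∀ {k : V ≃ₗ[ZMod 3] V}, k * z = z * k → ∀ n : ℕ, k (A ^ n *ᵥ v) = A ^ n *ᵥ k v := by
    intro k hk n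
    have h1 : Commute k z := hk
    rw [← pow_apply hzA, ← pow_apply hzA]
    exact DFunLike.congr_fun (h1.pow_right n).eq v
  apply LinearEquiv.ext
  intro x
  have h1 : x = Em *ᵥ (Ei *ᵥ x) := by rw [mulVec_mulVec, hE, one_mulVec]
  have h2 : ∀ y : V, Em *ᵥ y = ∑ j, y j • (fun i => Em i j) := by
    intro y
    funext i
    rw [Finset.sum_apply]
    simp only [mulVec, dotProduct, Pi.smul_apply, smul_eq_mul]
    exact Finset.sum_congr rfl fun j _ => mul_comm _ _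
  rw [h1, h2, map_sum, map_sum]
  refine Finset.sum_congr rfl fun j _ => ?_
  obtain ⟨n, hn⟩ := hcol j
  rw [map_smul, map_smul, hn, hpow hg, hpow hh, hv]

theorem count {A : M7} {z : V ≃ₗ[ZMod 3] V} (hzA : ∀ x, z x = A *ᵥ x) (hz : z ∈ E QF) {v : V} {Em Ei : M7}
    (hE : Em * Ei = 1) (hcol : ∀ j, ∃ n : ℕ, (fun i => Em i j) = A ^ n *ᵥ v) (T : Finset T7)
    (hT : ∀ b : V, (∀ n : ℕ, b ⬝ᵥ (Gm *ᵥ (A ^ n *ᵥ b)) = v ⬝ᵥ (Gm *ᵥ (A ^ n *ᵥ v))) → co7 b ∈ T)
    (t : Fin 4 → V ≃ₗ[ZMod 3] V) (htO : ∀ i, t i ∈ O QF) (htz : ∀ i, t i * z = z * t i)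
    (hinj : Function.Injective fun i => (LinearEquiv.det (t i), sg QF ⟨t i, htO i⟩)) :
    4 * Nat.card (Subgroup.centralizer ({(⟨z, hz⟩ : E QF)} : Set (E QF))) ≤ T.card := by
  have hfin : Finite (E QF) := Nat.finite_of_card_ne_zero (by rw [(card_E hF3).1]; norm_num)
  have hcomm : ∀ g : Subgroup.centralizer ({(⟨z, hz⟩ : E QF)} : Set (E QF)),
      ((g : E QF) : V ≃ₗ[ZMod 3] V) * z = z * ((g : E QF) : V ≃ₗ[ZMod 3] V) := fun g =>
    congrArg Subtype.val (Nine.mem_cent.1 g.2)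
  have hc2 : ∀ (g : Subgroup.centralizer ({(⟨z, hz⟩ : E QF)} : Set (E QF))) (i : Fin 4),
      (((g : E QF) : V ≃ₗ[ZMod 3] V) * t i) * z = z * (((g : E QF) : V ≃ₗ[ZMod 3] V) * t i) := by
    intro g i
    rw [mul_assoc, htz, ← mul_assoc, hcomm, mul_assoc]
  have hmem : ∀ (g : Subgroup.centralizer ({(⟨z, hz⟩ : E QF)} : Set (E QF))) (i : Fin 4),
      co7 ((((g : E QF) : V ≃ₗ[ZMod 3] V) * t i) v) ∈ T := by
    intro g i
    refine hT _ fun n => ?_
    have h1 : ((((g : E QF) : V ≃ₗ[ZMod 3] V) * t i)) ∈ O QF := mul_mem (E_le_O (g : E QF).2) (htO i)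
    have h2 : Commute (((g : E QF) : V ≃ₗ[ZMod 3] V) * t i) z := hc2 g i
    have h3 := DFunLike.congr_fun (h2.pow_right n).eq v
    have h4 : (z ^ n) ((((g : E QF) : V ≃ₗ[ZMod 3] V) * t i) v) = (((g : E QF) : V ≃ₗ[ZMod 3] V) * t i) ((z ^ n) v) :=
      h3.symm
    rw [← polar_mat, ← polar_mat, ← pow_apply hzA, ← pow_apply hzA, h4, polar_map h1]
  have h0 : 4 * Nat.card (Subgroup.centralizer ({(⟨z, hz⟩ : E QF)} : Set (E QF))) =
      Nat.card (Subgroup.centralizer ({(⟨z, hz⟩ : E QF)} : Set (E QF)) × Fin 4) := by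
    rw [Nat.card_prod, Nat.card_fin, mul_comm]
  rw [h0, ← Nat.card_eq_finsetCard T]
  refine Nat.card_le_card_of_injective (fun p => (⟨_, hmem p.1 p.2⟩ : T)) ?_
  rintro ⟨g, i⟩ ⟨g', j⟩ hgg
  have h1 := co7_inj (Subtype.ext_iff.1 hgg)
  have h2 := eq_of_cyclic hzA hE hcol (hc2 g i) (hc2 g' j) h1
  have h3 : i = j := by
    apply hinj
    have hdet := congrArg LinearEquiv.det h2
    rw [map_mul, map_mul, det_E (good hF3) (g : E QF).2, det_E (good hF3) (g' : E QF).2, one_mul, one_mul] at hdet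
    have hs : ∀ (k : Subgroup.centralizer ({(⟨z, hz⟩ : E QF)} : Set (E QF))) (l : Fin 4),
        sg QF ⟨((k : E QF) : V ≃ₗ[ZMod 3] V) * t l, mul_mem (E_le_O (k : E QF).2) (htO l)⟩ = sg QF ⟨t l, htO l⟩ := by
      intro k l
      have e1 : (⟨((k : E QF) : V ≃ₗ[ZMod 3] V) * t l, mul_mem (E_le_O (k : E QF).2) (htO l)⟩ : O QF) =
          ⟨((k : E QF) : V ≃ₗ[ZMod 3] V), E_le_O (k : E QF).2⟩ * ⟨t l, htO l⟩ := rfl
      rw [e1, map_mul, ((mem_E_iff (good hF3) (two_ne hF3) (E_le_O (k : E QF).2)).1 (k : E QF).2).2, one_mul]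
    have hsg : sg QF ⟨t i, htO i⟩ = sg QF ⟨t j, htO j⟩ := by
      rw [← hs g i, ← hs g' j]
      congr 1
      exact Subtype.ext h2
    exact Prod.ext hdet hsg
  subst h3
  have h4 := mul_right_cancel h2
  rw [Subtype.ext (Subtype.ext h4)]

/-- isometries of odd order -/
theorem mem_E_of_pow {g : V ≃ₗ[ZMod 3] V} (hg : g ∈ O QF) {k : ℕ} (hk : g ^ (2 * k + 1) = 1) : g ∈ E QF := by
  rw [mem_E_iff (good hF3) (two_ne hF3) hg]
  constructor
  · have h1 : (LinearEquiv.det g) ^ (2 * k + 1) = 1 := by rw [← map_pow, hk, map_one]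
    have h2 : ∀ u : (ZMod 3)ˣ, u ^ 2 = 1 := by decide
    rw [pow_succ, pow_mul, h2, one_pow, one_mul] at h1
    exact h1
  · have h1 : (sg QF ⟨g, hg⟩) ^ (2 * k + 1) = 1 := by
      rw [← map_pow, show (⟨g, hg⟩ : O QF) ^ (2 * k + 1) = 1 from Subtype.ext hk, map_one]
    rw [pow_succ, pow_mul, Int.units_sq, one_pow, one_mul] at h1
    exact h1

/-! ### `-1` -/

theorem neg_mem : (LinearEquiv.neg (ZMod 3) : V ≃ₗ[ZMod 3] V) ∈ O QF := by
  rw [mem_O]
  intro x
  exact QuadraticMap.map_neg _ x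

theorem Q_v0 : QF (v0 (ZMod 3)) = -1 := Q_w 0 (-1)

theorem det_neg : LinearEquiv.det (LinearEquiv.neg (ZMod 3) : V ≃ₗ[ZMod 3] V) = -1 := by
  have h := det_E (good hF3) (zz_mem (good hF3))
  rw [zz, map_mul, det_refl] at h
  have h2 : ∀ u : (ZMod 3)ˣ, u * -1 = 1 → u = -1 := by decide
  exact h2 _ h

theorem sg_neg : sg QF ⟨LinearEquiv.neg (ZMod 3), neg_mem⟩ = 1 := by
  classical
  have h := ((mem_E_iff (good hF3) (two_ne hF3) (E_le_O (zz_mem (good hF3)))).1 (zz_mem (good hF3))).2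
  have e1 : (⟨zz QF (w 0 (-1)) (Qm 0), E_le_O (zz_mem (good hF3))⟩ : O QF) =
      ⟨LinearEquiv.neg (ZMod 3), neg_mem⟩ * ⟨refl QF (w 0 (-1)) (Qm 0), refl_mem_O (Qm 0)⟩ := rfl
  rw [e1, map_mul, sg_refl (two_ne hF3) (Qm 0), if_neg] at h
  · rwa [mul_one] at h
  · rw [Q_w]
    decide

theorem neg_comm (g : V ≃ₗ[ZMod 3] V) : LinearEquiv.neg (ZMod 3) * g = g * LinearEquiv.neg (ZMod 3) := by
  apply LinearEquiv.ext
  intro x
  show -(g x) = g (-x)
  rw [map_neg]

/-- a reflection in a vector fixed by `g` -/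
theorem refl_comm' {g : V ≃ₗ[ZMod 3] V} (hg : g ∈ O QF) {v : V} (hv : QF v ≠ 0) (hgv : g v = v) :
    refl QF v hv * g = g * refl QF v hv := by
  have h := refl_conj hg hv (by rw [hgv]; exact hv)
  have h1 : refl QF (g v) (by rw [hgv]; exact hv) = refl QF v hv := by
    congr 1
  rw [h1] at h
  exact (mul_inv_eq_iff_eq_mul.1 h).symm

/-! ### the element of order 13 -/

/-- the element of order 13 -/
noncomputable def z13 : V ≃ₗ[ZMod 3] V := toE a13_inv a13_inv'

theorem z13_apply (x : V) : z13 x = a13 *ᵥ x := rfl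

theorem z13_mem_O : z13 ∈ O QF := mem_O_of z13_apply a13_gram

theorem z13_pow : z13 ^ 13 = 1 := by
  apply LinearEquiv.ext
  intro x
  rw [pow_apply z13_apply, a13_pow, one_mulVec]
  rfl

theorem z13_mem : z13 ∈ E QF := mem_E_of_pow z13_mem_O (k := 6) z13_pow

theorem z13_ne : z13 ≠ 1 := by
  intro h
  have h1 := DFunLike.congr_fun h a13v
  have h2 : a13 *ᵥ a13v ≠ a13v := by decide +kernel
  exact h2 h1

theorem z13_u0 : z13 u0 = u0 := by
  have h2 : a13 *ᵥ vec 1 0 0 0 0 0 0 = vec 1 0 0 0 0 0 0 := by decide +kernel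
  have h3 : (u0 : V) = vec 1 0 0 0 0 0 0 := by decide +kernel
  rw [h3]
  exact h2

/-- **`|C(z)| ≤ 13`** -/
theorem z13_cent : Nat.card (Subgroup.centralizer ({(⟨z13, z13_mem⟩ : E QF)} : Set (E QF))) ≤ 13 := by
  classical
  have hr : refl QF u0 Qu ∈ O QF := refl_mem_O Qu
  have h := count (A := a13) z13_apply z13_mem a13_E a13_col a13T (by
      intro b hb
      have e1 : ∀ x : V, Gm *ᵥ (a13 ^ 1 *ᵥ x) = a13M1 *ᵥ x := by
        intro x
        rw [mulVec_mulVec, pow_one, a13_M1]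
      have e2 : ∀ x : V, Gm *ᵥ (a13 ^ 2 *ᵥ x) = a13M2 *ᵥ x := by
        intro x
        rw [mulVec_mulVec, pow_succ, pow_one, ← Matrix.mul_assoc, a13_M1, a13_M2]
      have e3 : ∀ x : V, Gm *ᵥ (a13 ^ 3 *ᵥ x) = a13M3 *ᵥ x := by
        intro x
        rw [mulVec_mulVec, pow_succ, pow_succ, pow_one, ← Matrix.mul_assoc, ← Matrix.mul_assoc, a13_M1, a13_M2,
          a13_M3]
      have h0 := hb 0
      have h1 := hb 1
      have h2 := hb 2
      have h3 := hb 3
      rw [pow_zero, one_mulVec, one_mulVec, a13_v0] at h0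
      rw [e1, e1, a13_v1] at h1
      rw [e2, e2, a13_v2] at h2
      rw [e3, e3, a13_v3] at h3
      rw [a13T, Finset.mem_filter, vec_co7]
      exact ⟨Finset.mem_univ _, h0, h1, h2, h3⟩)
    ![1, LinearEquiv.neg (ZMod 3), refl QF u0 Qu, LinearEquiv.neg (ZMod 3) * refl QF u0 Qu]
    (by
      intro i
      fin_cases i
      · exact one_mem _
      · exact neg_mem
      · exact hr
      · exact mul_mem neg_mem hr)
    (by
      have hc := refl_comm' z13_mem_O Qu z13_u0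
      intro i
      fin_cases i
      · exact (one_mul _).trans (mul_one _).symm
      · exact neg_comm _
      · exact hc
      · change LinearEquiv.neg (ZMod 3) * refl QF u0 Qu * z13 = z13 * (LinearEquiv.neg (ZMod 3) * refl QF u0 Qu)
        rw [mul_assoc, hc, ← mul_assoc, neg_comm, mul_assoc])
    (by
      have hsr : sg QF ⟨refl QF u0 Qu, hr⟩ = -1 := by
        rw [sg_refl (two_ne hF3) Qu, if_pos]
        rw [Q_u0]
        decide
      have hdr : LinearEquiv.det (refl QF (u0 : V) Qu) = -1 := det_refl Qu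
      have hs2 : sg QF ⟨LinearEquiv.neg (ZMod 3) * refl QF u0 Qu, mul_mem neg_mem hr⟩ = -1 := by
        have e1 : (⟨LinearEquiv.neg (ZMod 3) * refl QF u0 Qu, mul_mem neg_mem hr⟩ : O QF) =
          ⟨LinearEquiv.neg (ZMod 3), neg_mem⟩ * ⟨refl QF u0 Qu, hr⟩ := rfl
        rw [e1, map_mul, sg_neg, hsr, one_mul]
      have hd2 : LinearEquiv.det (LinearEquiv.neg (ZMod 3) * refl QF (u0 : V) Qu) = 1 := by
        rw [map_mul, det_neg, hdr]
        decide
      have hs1 : sg QF ⟨(1 : V ≃ₗ[ZMod 3] V), one_mem _⟩ = 1 := map_one (sg QF)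
      have hd1 : LinearEquiv.det (1 : V ≃ₗ[ZMod 3] V) = 1 := map_one _
      have n1 : (1 : (ZMod 3)ˣ) ≠ -1 := by decide
      have n2 : (1 : ℤˣ) ≠ -1 := by decide
      intro i j hij
      have h1 := congrArg Prod.fst hij
      have h2 := congrArg Prod.snd hij
      fin_cases i <;> fin_cases j <;> first | rfl | exfalso
      · exact n1 (hd1.symm.trans (h1.trans det_neg))
      · exact n1 (hd1.symm.trans (h1.trans hdr))
      · exact n2 (hs1.symm.trans (h2.trans hs2))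
      · exact n1 (hd1.symm.trans (h1.symm.trans det_neg))
      · exact n2 (sg_neg.symm.trans (h2.trans hsr))
      · exact n1 (hd2.symm.trans (h1.symm.trans det_neg))
      · exact n1 (hd1.symm.trans (h1.symm.trans hdr))
      · exact n2 (sg_neg.symm.trans (h2.symm.trans hsr))
      · exact n1 (hd2.symm.trans (h1.symm.trans hdr))
      · exact n2 (hs1.symm.trans (h2.symm.trans hs2))
      · exact n1 (hd2.symm.trans (h1.trans det_neg))
      · exact n1 (hd2.symm.trans (h1.trans hdr)))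
  rw [a13_card] at h
  omega

/-! ### the element of order 7 -/

/-- the element of order 7 -/
noncomputable def z7 : V ≃ₗ[ZMod 3] V := toE a7_inv a7_inv'

theorem z7_apply (x : V) : z7 x = a7 *ᵥ x := rfl

theorem z7_mem_O : z7 ∈ O QF := mem_O_of z7_apply a7_gram

theorem z7_pow : z7 ^ 7 = 1 := by
  apply LinearEquiv.ext
  intro x
  rw [pow_apply z7_apply, a7_pow, one_mulVec]
  rfl

theorem z7_mem : z7 ∈ E QF := mem_E_of_pow z7_mem_O (k := 3) z7_pow

theorem z7_ne : z7 ≠ 1 := by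
  intro h
  have h1 := DFunLike.congr_fun h a7v
  have h2 : a7 *ᵥ a7v ≠ a7v := by decide +kernel
  exact h2 h1

theorem z7_v0 : z7 (v0 (ZMod 3)) = v0 (ZMod 3) := by
  have h2 : a7 *ᵥ vec 0 1 0 0 2 0 0 = vec 0 1 0 0 2 0 0 := by decide +kernel
  have h3 : v0 (ZMod 3) = vec 0 1 0 0 2 0 0 := by
    change w 0 (-1) = _
    decide +kernel
  rw [h3]
  exact h2

theorem QF_eq (v : V) : QF v = v (.inl ()) ^ 2 + ∑ i : Fin 3, v (.inr (.inl i)) * v (.inr (.inr i)) :=
  Cfsg.Agent.H237.OSeven.Q_eq v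

theorem q0 : QF fv0 = 1 := (QF_eq _).trans fv0_Q
theorem q1 : QF fv1 = -1 := (QF_eq _).trans fv1_Q
theorem q2 : QF fv2 = 1 := (QF_eq _).trans fv2_Q
theorem q3 : QF fv3 = -1 := (QF_eq _).trans fv3_Q
theorem q4 : QF fv4 = -1 := (QF_eq _).trans fv4_Q
theorem q5 : QF fv5 = 1 := (QF_eq _).trans fv5_Q

theorem ne_of_one {v : V} (h : QF v = 1) : QF v ≠ 0 := by rw [h]; exact one_ne_zero

theorem ne_of_neg {v : V} (h : QF v = -1) : QF v ≠ 0 := by rw [h]; exact neg_ne_zero.2 one_ne_zero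

theorem refl_one {v : V} (h : QF v = 1) {R : M7} (hR : 1 - (1 : ZMod 3) • vecMulVec v (Gm *ᵥ v) = R) (x : V) :
    refl QF v (ne_of_one h) x = R *ᵥ x := by
  rw [refl_mat _ h, inv_one, hR]

theorem refl_neg {v : V} (h : QF v = -1) {R : M7} (hR : 1 - (-1 : ZMod 3) • vecMulVec v (Gm *ᵥ v) = R) (x : V) :
    refl QF v (ne_of_neg h) x = R *ᵥ x := by
  rw [refl_mat _ h, inv_neg, inv_one, hR]

theorem sg_one {v : V} (h : QF v = 1) : sg QF ⟨refl QF v (ne_of_one h), refl_mem_O _⟩ = -1 := by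
  classical
  rw [sg_refl (two_ne hF3), if_pos]
  rw [h]
  decide

theorem sg_neg1 {v : V} (h : QF v = -1) : sg QF ⟨refl QF v (ne_of_neg h), refl_mem_O _⟩ = 1 := by
  classical
  rw [sg_refl (two_ne hF3), if_neg]
  rw [h]
  decide

/-- the product of the six reflections, as an isometry -/
noncomputable def Fo : O QF :=
  ⟨refl QF fv0 (ne_of_one q0), refl_mem_O _⟩ * ⟨refl QF fv1 (ne_of_neg q1), refl_mem_O _⟩ *
    ⟨refl QF fv2 (ne_of_one q2), refl_mem_O _⟩ * ⟨refl QF fv3 (ne_of_neg q3), refl_mem_O _⟩ *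
    ⟨refl QF fv4 (ne_of_neg q4), refl_mem_O _⟩ * ⟨refl QF fv5 (ne_of_one q5), refl_mem_O _⟩

/-- the isometry of order 4 -/
noncomputable def Fm : V ≃ₗ[ZMod 3] V := (Fo : V ≃ₗ[ZMod 3] V)

theorem Fm_mem : Fm ∈ O QF := Fo.2

theorem Fm_apply (x : V) : Fm x = ff *ᵥ x := by
  change refl QF fv0 (ne_of_one q0) (refl QF fv1 (ne_of_neg q1) (refl QF fv2 (ne_of_one q2)
    (refl QF fv3 (ne_of_neg q3) (refl QF fv4 (ne_of_neg q4) (refl QF fv5 (ne_of_one q5) x))))) = _
  rw [refl_one q0 fR0_eq, refl_neg q1 fR1_eq, refl_one q2 fR2_eq, refl_neg q3 fR3_eq, refl_neg q4 fR4_eq,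
    refl_one q5 fR5_eq]
  simp only [mulVec_mulVec]
  rw [← ff_eq, ← fP4_eq, ← fP3_eq, ← fP2_eq, ← fP1_eq]
  simp only [Matrix.mul_assoc]

theorem sg_Fm : sg QF ⟨Fm, Fm_mem⟩ = -1 := by
  change sg QF Fo = -1
  rw [Fo, map_mul, map_mul, map_mul, map_mul, map_mul, sg_one q0, sg_neg1 q1, sg_one q2, sg_neg1 q3, sg_neg1 q4,
    sg_one q5]
  decide

theorem det_Fm : LinearEquiv.det Fm = 1 := by
  change LinearEquiv.det (refl QF fv0 (ne_of_one q0) * refl QF fv1 (ne_of_neg q1) * refl QF fv2 (ne_of_one q2) *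
    refl QF fv3 (ne_of_neg q3) * refl QF fv4 (ne_of_neg q4) * refl QF fv5 (ne_of_one q5)) = 1
  rw [map_mul, map_mul, map_mul, map_mul, map_mul, det_refl, det_refl, det_refl, det_refl, det_refl, det_refl]
  decide

theorem Fm_comm : Fm * z7 = z7 * Fm := by
  apply LinearEquiv.ext
  intro x
  change Fm (z7 x) = z7 (Fm x)
  rw [Fm_apply, z7_apply, z7_apply, Fm_apply, mulVec_mulVec, mulVec_mulVec, ff_comm]

/-- **`|C(z)| ≤ 14`** -/
theorem z7_cent_le : Nat.card (Subgroup.centralizer ({(⟨z7, z7_mem⟩ : E QF)} : Set (E QF))) ≤ 14 := by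
  classical
  have h := count (A := a7) z7_apply z7_mem a7_E a7_col a7T (by
      intro b hb
      have e1 : ∀ x : V, Gm *ᵥ (a7 ^ 1 *ᵥ x) = a7M1 *ᵥ x := by
        intro x
        rw [mulVec_mulVec, pow_one, a7_M1]
      have e2 : ∀ x : V, Gm *ᵥ (a7 ^ 2 *ᵥ x) = a7M2 *ᵥ x := by
        intro x
        rw [mulVec_mulVec, pow_succ, pow_one, ← Matrix.mul_assoc, a7_M1, a7_M2]
      have e3 : ∀ x : V, Gm *ᵥ (a7 ^ 3 *ᵥ x) = a7M3 *ᵥ x := by
        intro x
        rw [mulVec_mulVec, pow_succ, pow_succ, pow_one, ← Matrix.mul_assoc, ← Matrix.mul_assoc, a7_M1, a7_M2,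
          a7_M3]
      have h0 := hb 0
      have h1 := hb 1
      have h2 := hb 2
      have h3 := hb 3
      rw [pow_zero, one_mulVec, one_mulVec, a7_v0] at h0
      rw [e1, e1, a7_v1] at h1
      rw [e2, e2, a7_v2] at h2
      rw [e3, e3, a7_v3] at h3
      rw [a7T, Finset.mem_filter, vec_co7]
      exact ⟨Finset.mem_univ _, h0, h1, h2, h3⟩)
    ![1, LinearEquiv.neg (ZMod 3), Fm, LinearEquiv.neg (ZMod 3) * Fm]
    (by
      intro i
      fin_cases i
      · exact one_mem _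
      · exact neg_mem
      · exact Fm_mem
      · exact mul_mem neg_mem Fm_mem)
    (by
      have hc := Fm_comm
      intro i
      fin_cases i
      · exact (one_mul _).trans (mul_one _).symm
      · exact neg_comm _
      · exact hc
      · change LinearEquiv.neg (ZMod 3) * Fm * z7 = z7 * (LinearEquiv.neg (ZMod 3) * Fm)
        rw [mul_assoc, hc, ← mul_assoc, neg_comm, mul_assoc])
    (by
      have hs2 : sg QF ⟨LinearEquiv.neg (ZMod 3) * Fm, mul_mem neg_mem Fm_mem⟩ = -1 := by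
        have e1 : (⟨LinearEquiv.neg (ZMod 3) * Fm, mul_mem neg_mem Fm_mem⟩ : O QF) =
          ⟨LinearEquiv.neg (ZMod 3), neg_mem⟩ * ⟨Fm, Fm_mem⟩ := rfl
        rw [e1, map_mul, sg_neg, sg_Fm, one_mul]
      have hd2 : LinearEquiv.det (LinearEquiv.neg (ZMod 3) * Fm) = -1 := by
        rw [map_mul, det_neg, det_Fm, mul_one]
      have hs1 : sg QF ⟨(1 : V ≃ₗ[ZMod 3] V), one_mem _⟩ = 1 := map_one (sg QF)
      have hd1 : LinearEquiv.det (1 : V ≃ₗ[ZMod 3] V) = 1 := map_one _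
      have n1 : (1 : (ZMod 3)ˣ) ≠ -1 := by decide
      have n2 : (1 : ℤˣ) ≠ -1 := by decide
      intro i j hij
      have h1 := congrArg Prod.fst hij
      have h2 := congrArg Prod.snd hij
      fin_cases i <;> fin_cases j <;> first | rfl | exfalso
      · exact n1 (hd1.symm.trans (h1.trans det_neg))
      · exact n2 (hs1.symm.trans (h2.trans sg_Fm))
      · exact n1 (hd1.symm.trans (h1.trans hd2))
      · exact n1 (hd1.symm.trans (h1.symm.trans det_neg))
      · exact n1 (det_Fm.symm.trans (h1.symm.trans det_neg))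
      · exact n2 (sg_neg.symm.trans (h2.trans hs2))
      · exact n2 (hs1.symm.trans (h2.symm.trans sg_Fm))
      · exact n1 (det_Fm.symm.trans (h1.trans det_neg))
      · exact n1 (det_Fm.symm.trans (h1.trans hd2))
      · exact n1 (hd1.symm.trans (h1.symm.trans hd2))
      · exact n2 (sg_neg.symm.trans (h2.symm.trans hs2))
      · exact n1 (det_Fm.symm.trans (h1.symm.trans hd2)))
  rw [a7_card] at h
  omega

/-! ### an elementary abelian subgroup of order eight -/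

/-- the product of the reflections in `w i 1` and `u0` -/
noncomputable def ee (i : Fin 3) : E QF := ⟨refl QF (w i 1) (Qp i) * refl QF u0 Qu,
  (good hF3).refl_mul_refl_mem Qu (Qp i) (by rw [Q_w, Q_u0])⟩

theorem ee_apply (i : Fin 3) (x : V) : ((ee i : E QF) : V ≃ₗ[ZMod 3] V) x =
    refl QF (w i 1) (Qp i) (refl QF u0 Qu x) := rfl

theorem refl_mul_self' {v : V} (hv : QF v ≠ 0) : refl QF v hv * refl QF v hv = 1 := refl_mul_self hv

theorem comm_wu (i : Fin 3) : refl QF (w i 1) (Qp i) * refl QF u0 Qu = refl QF u0 Qu * refl QF (w i 1) (Qp i) := by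
  refine refl_comm (Qp i) Qu ?_
  rw [Cfsg.Agent.H237.OSeven.polar_w]
  simp [u0]

theorem comm_ww (i j : Fin 3) : refl QF (w i 1) (Qp i) * refl QF (w j 1) (Qp j) =
    refl QF (w j 1) (Qp j) * refl QF (w i 1) (Qp i) := by
  by_cases hij : i = j
  · subst hij
    rfl
  · refine refl_comm (Qp i) (Qp j) ?_
    rw [Cfsg.Agent.H237.OSeven.polar_w]
    simp [w, hij]

theorem ee_mul_self (i : Fin 3) : ee i * ee i = 1 := by
  apply Subtype.ext
  change (refl QF (w i 1) (Qp i) * refl QF u0 Qu) * (refl QF (w i 1) (Qp i) * refl QF u0 Qu) = 1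
  nth_rewrite 2 [comm_wu]
  rw [mul_assoc, ← mul_assoc (refl QF u0 Qu), refl_mul_self', one_mul, refl_mul_self']

theorem ee_mul (i j : Fin 3) : ((ee i * ee j : E QF) : V ≃ₗ[ZMod 3] V) =
    refl QF (w i 1) (Qp i) * refl QF (w j 1) (Qp j) := by
  change (refl QF (w i 1) (Qp i) * refl QF u0 Qu) * (refl QF (w j 1) (Qp j) * refl QF u0 Qu) = _
  rw [comm_wu j, mul_assoc, ← mul_assoc (refl QF u0 Qu), refl_mul_self', one_mul]

theorem ee_comm (i j : Fin 3) : ee i * ee j = ee j * ee i := by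
  apply Subtype.ext
  rw [ee_mul, ee_mul, comm_ww]

theorem refl_u_w (j : Fin 3) : refl QF u0 Qu (w j 1) = w j 1 := by
  rw [refl_u]
  simp [w]

theorem ee_self (i : Fin 3) : ((ee i : E QF) : V ≃ₗ[ZMod 3] V) (w i 1) (.inr (.inl i)) = -1 := by
  rw [ee_apply, refl_u_w, refl_p]
  simp [w]

theorem ee_other {i j : Fin 3} (h : i ≠ j) : ((ee i : E QF) : V ≃ₗ[ZMod 3] V) (w j 1) = w j 1 := by
  rw [ee_apply, refl_u_w, refl_p]
  simp [w, h]

theorem w_one (i : Fin 3) : (w i 1 : V) (.inr (.inl i)) = 1 := by simp [w]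

theorem e8 : E8 (ee 0) (ee 1) (ee 2) := by
  have n1 : (-1 : ZMod 3) ≠ 1 := by decide
  have hne : ∀ i : Fin 3, ee i ≠ 1 := by
    intro i h
    have h1 := ee_self i
    rw [h] at h1
    change (w i 1 : V) (.inr (.inl i)) = -1 at h1
    rw [w_one] at h1
    exact n1 h1.symm
  have hne2 : ∀ i j : Fin 3, i ≠ j → ee i ≠ ee j := by
    intro i j hij h
    have h1 := ee_self i
    rw [h, ee_other (Ne.symm hij), w_one] at h1
    exact n1 h1.symm
  refine ⟨ee_mul_self 0, ee_mul_self 1, ee_mul_self 2, ee_comm 0 1, ee_comm 0 2, ee_comm 1 2, hne 0, hne 1, hne 2,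
    hne2 0 1 (by decide), hne2 0 2 (by decide), hne2 1 2 (by decide), ?_⟩
  intro h
  have h1 := ee_self 2
  rw [h] at h1
  change ((ee 0 : E QF) : V ≃ₗ[ZMod 3] V) (((ee 1 : E QF) : V ≃ₗ[ZMod 3] V) (w 2 1)) (.inr (.inl 2)) = -1 at h1
  rw [ee_other (by decide), ee_other (by decide), w_one] at h1
  exact n1 h1.symm

/-! ### the row -/

theorem z7_cent : Nat.card (Subgroup.centralizer ({(⟨z7, z7_mem⟩ : E QF)} : Set (E QF))) = 14 := by
  have hfin : Finite (E QF) := Nat.finite_of_card_ne_zero (by rw [(card_E hF3).1]; norm_num)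
  have h1 := z7_cent_le
  have h7 : 7 ∣ Nat.card (Subgroup.centralizer ({(⟨z7, z7_mem⟩ : E QF)} : Set (E QF))) := by
    have : Fact (Nat.Prime 7) := ⟨by norm_num⟩
    have h2 : orderOf (⟨z7, z7_mem⟩ : E QF) = 7 :=
      orderOf_eq_prime (Subtype.ext z7_pow) (fun h => z7_ne (congrArg Subtype.val h))
    nth_rewrite 1 [← h2]
    exact Subgroup.orderOf_dvd_natCard _ (Nine.mem_cent.2 rfl)
  have h2 : 2 ∣ Nat.card (Subgroup.centralizer ({(⟨z7, z7_mem⟩ : E QF)} : Set (E QF))) := by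
    have : Fact (Nat.Prime 2) := ⟨Nat.prime_two⟩
    obtain ⟨-, z, hz1, hz2, -, -⟩ := Cfsg.Agent.H237.OSevenG.dat_E hF3
    have h3 : orderOf (zE hF3) = 2 := by
      refine orderOf_eq_prime ?_ ?_
      · rw [pow_two]
        exact Subtype.ext (Cfsg.Agent.H237.OSeven.zz_mul_self _)
      · intro h
        have h4 : zz QF (v0 (ZMod 3)) (Qm 0) = 1 := congrArg Subtype.val h
        have h5 := det_neg
        have h6 : (LinearEquiv.neg (ZMod 3) : V ≃ₗ[ZMod 3] V) = refl QF (v0 (ZMod 3)) (Qm 0) := by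
          have h7 := eq_inv_of_mul_eq_one_left h4
          rw [h7]
          exact (refl_inv (Qm 0))
        have h8 := DFunLike.congr_fun h6 (u0 : V)
        have h9 : refl QF (v0 (ZMod 3)) (Qm 0) (u0 : V) = u0 := by
          rw [Cfsg.Agent.H237.OSeven.refl_m]
          simp [u0]
        rw [h9] at h8
        have h10 := congrFun h8 (.inl ())
        change -(u0 : V) (.inl ()) = (u0 : V) (.inl ()) at h10
        revert h10
        decide
    rw [← h3]
    refine Subgroup.orderOf_dvd_natCard _ (Nine.mem_cent.2 ?_)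
    apply Subtype.ext
    change zz QF (v0 (ZMod 3)) (Qm 0) * z7 = z7 * zz QF (v0 (ZMod 3)) (Qm 0)
    rw [zz, mul_assoc, refl_comm' z7_mem_O (Qm 0) z7_v0, ← mul_assoc, neg_comm, mul_assoc]
  have hpos : 0 < Nat.card (Subgroup.centralizer ({(⟨z7, z7_mem⟩ : E QF)} : Set (E QF))) := Nat.card_pos
  omega

/-- **`Ω₇(3)`.** -/
theorem row_E {S : Type u} [Group S] [Finite S] (hs : IsSimpleGroup S) (e : E QF ≃* S) : H730.OZ.Row S := by
  have hs' := hs
  have hN := (card_E hF3).1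
  have h13 : orderOf (e ⟨z13, z13_mem⟩) = 13 := by
    have : Fact (Nat.Prime 13) := ⟨by norm_num⟩
    rw [MulEquiv.orderOf_eq]
    exact orderOf_eq_prime (Subtype.ext z13_pow) (fun h => z13_ne (congrArg Subtype.val h))
  have h7 : orderOf (e ⟨z7, z7_mem⟩) = 7 := by
    have : Fact (Nat.Prime 7) := ⟨by norm_num⟩
    rw [MulEquiv.orderOf_eq]
    exact orderOf_eq_prime (Subtype.ext z7_pow) (fun h => z7_ne (congrArg Subtype.val h))
  obtain ⟨-, z, hz1, hz2, hz3, -⟩ := Cfsg.Agent.H237.OSevenG.dat_E hF3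
  refine row_nine (G := S) (by rw [← Nat.card_congr e.toEquiv, hN]) h7 ?_ h13 ?_ (t := e z)
    (fun h => hz2 (e.injective (by rw [h, map_one]))) (by rw [← map_mul, hz1, map_one]) ?_
    (e8.map e.toMonoidHom e.injective)
  · rw [Cfsg.Agent.H237.OSevenG.card_cent_congr]
    exact z7_cent
  · rw [Cfsg.Agent.H237.OSevenG.card_cent_congr]
    exact z13_cent
  · rw [Cfsg.Agent.H237.OSevenG.card_cent_congr]
    exact hz3

/-- **`PΩ₇(3)`.** -/
theorem row_o7_3 {S : Type u} [Group S] [Finite S] (hs : IsSimpleGroup S) {F : Type} [Field F] [Fintype F]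
    (hF : Fintype.card F = 3) (e : S ≃* POmega F (quadFormOdd 3 F)) : H730.OZ.Row S := by
  obtain ⟨σ⟩ := Cfsg.Agent.H237.OSeven.ringEquiv (F := F) (by rw [Nat.card_eq_fintype_card, hF])
  obtain ⟨f⟩ := Cfsg.Agent.UGT.U2.Rec.Congr.nonempty_POmegaOdd σ 3
  obtain ⟨-, ⟨k⟩⟩ := card_E hF3
  exact row_E hs ((e.trans f).trans k).symm

end Cfsg.Agent.H328.OZ.OSevenThree
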